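import Mathlib
import Cfsg.Agent.Lib.Helper43.OMinusBal.Defs

/-!
# S2733 package P-ISO: isotropic vectors in dimension at least three over a finite field
-/

set_option autoImplicit false

namespace Cfsg.Agent.Lib.Helper90.OMinusBal

open Polynomial

universe u v

theorem lemIso : Cfsg.Agent.Lib.Helper43.OMinusBal.LemIso.{u, v} := by
  intro E _ _ W _ _ _ B h2 hsym hnd hdim
  classical
  haveI : Fintype E := Fintype.ofFinite E
  letI : Invertible (2 : E) := invertibleOfNonzero h2
  have hBs : LinearMap.IsSymm B := LinearMap.isSymm_def.2 (fun x y => by simpa using hsym x y)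
  obtain ⟨v, hv⟩ := LinearMap.BilinForm.exists_orthogonal_basis hBs
  have hortho : ∀ i j : Fin (Module.finrank E W), i ≠ j → B (v i) (v j) = 0 := by
    intro i j hij
    exact hv hij
  set i0 : Fin (Module.finrank E W) := ⟨0, by omega⟩ with hi0
  set i1 : Fin (Module.finrank E W) := ⟨1, by omega⟩ with hi1
  set i2 : Fin (Module.finrank E W) := ⟨2, by omega⟩ with hi2
  have h01 : i0 ≠ i1 := by simp [hi0, hi1, Fin.ext_iff]
  have h02 : i0 ≠ i2 := by simp [hi0, hi2, Fin.ext_iff]
  have h12 : i1 ≠ i2 := by simp [hi1, hi2, Fin.ext_iff]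
  by_cases ha0 : B (v i0) (v i0) = 0
  · exact ⟨v i0, v.ne_zero i0, ha0⟩
  by_cases ha1 : B (v i1) (v i1) = 0
  · exact ⟨v i1, v.ne_zero i1, ha1⟩
  have hchar : ringChar E ≠ 2 := by
    intro h
    haveI : CharP E 2 := ringChar.of_eq h
    exact h2 (CharTwo.two_eq_zero)
  have hodd : Fintype.card E % 2 = 1 := FiniteField.odd_card_of_char_ne_two hchar
  have hf : degree (C (B (v i0) (v i0)) * X ^ 2 : E[X]) = 2 := by
    rw [degree_C_mul_X_pow 2 ha0]; rfl
  have hg : degree (C (B (v i1) (v i1)) * X ^ 2 + C (B (v i2) (v i2)) : E[X]) = 2 := by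
    have h3 : degree (C (B (v i1) (v i1)) * X ^ 2 : E[X]) = 2 := by
      rw [degree_C_mul_X_pow 2 ha1]; rfl
    rw [degree_add_C (by rw [h3]; decide), h3]
  obtain ⟨x, y, hxy⟩ := FiniteField.exists_root_sum_quadratic hf hg hodd
  simp only [eval_add, eval_mul, eval_C, eval_pow, eval_X] at hxy
  refine ⟨x • v i0 + y • v i1 + v i2, ?_, ?_⟩
  · intro h0
    have h4 := congrArg (fun w => v.repr w i2) h0
    simp only [map_add, map_smul, Finsupp.add_apply, Finsupp.smul_apply, Module.Basis.repr_self,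
      smul_eq_mul, map_zero, Finsupp.zero_apply] at h4
    rw [Finsupp.single_eq_of_ne (Ne.symm h02), Finsupp.single_eq_of_ne (Ne.symm h12),
      Finsupp.single_eq_same] at h4
    simp at h4
  · simp only [map_add, map_smul, LinearMap.add_apply, LinearMap.smul_apply, smul_eq_mul,
      hortho i0 i1 h01, hortho i0 i2 h02, hortho i1 i2 h12, hortho i1 i0 h01.symm,
      hortho i2 i0 h02.symm, hortho i2 i1 h12.symm]
    linear_combination hxy

end Cfsg.Agent.Lib.Helper90.OMinusBal
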